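import Groth.Agent.Ega2.H298.ProjRatio

/-!
# Morphisms to `Proj 𝒮` with isomorphic pullbacks of `O(1)` coincide

Let `𝒮` be a graded `A`-algebra generated over `A` by a family `t i` of elements of degree one.
* `deh 𝒮 f`: the dehomogenization `S →+* 𝒮_(f)`, for `f` of degree one.
* `away_ringHom_ext`: ring homomorphisms out of `𝒮_(f)` agreeing on `A` and on the `t i / f` are equal.
* `resHom 𝒮 r f hW`: for `r : X ⟶ Proj 𝒮` and `W ≤ r⁻¹ D_+(f)`, the ring homomorphism `𝒮_(f) →+* Γ(X, W)`.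
* `eq_of_iso`: `A`-morphisms `r, r' : X ⟶ Proj 𝒮` with an isomorphism `r^* O(1) ≅ r'^* O(1)` compatible with the `t i`
  are equal.
-/

set_option autoImplicit false
universe u
open CategoryTheory CategoryTheory.Limits AlgebraicGeometry TopologicalSpace Opposite HomogeneousLocalization
open Groth.Agent.Fdesc.LocGen
open Groth.Agent.VarietyB Groth.Agent.VarietyB.ProjHom Groth.Agent.VarietyB.ProjGlue
open Groth.Agent.Ega2.H298.ProjRatio

namespace Groth.Agent.Ega2.H298.ProjExt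

variable {A : Type u} [CommRing A] {S : Type u} [CommRing S] [Algebra A S] (𝒮 : ℕ → Submodule A S)
  [GradedAlgebra 𝒮]

section deh

/-- The map `a ↦ a / f ^ i` on the degree `i` part. -/
noncomputable def dehAux (f : 𝒮 1) (i : ℕ) : 𝒮 i →+ Away 𝒮 f.1 where
  toFun a := Away.mk 𝒮 f.2 i a.1 (by simp)
  map_zero' := by
    apply HomogeneousLocalization.val_injective
    rw [Away.val_mk, HomogeneousLocalization.val_zero]
    exact Localization.mk_zero _
  map_add' a b := by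
    apply HomogeneousLocalization.val_injective
    rw [HomogeneousLocalization.val_add, Away.val_mk, Away.val_mk, Away.val_mk, Localization.add_mk_self]
    rfl

/-- Dehomogenization with respect to an element `f` of degree one: `Σ a_i ↦ Σ a_i / f ^ i`. -/
noncomputable def deh (f : 𝒮 1) : S →+* Away 𝒮 f.1 :=
  (DirectSum.toSemiring (dehAux 𝒮 f)
    (by
      apply HomogeneousLocalization.val_injective
      change (Away.mk 𝒮 f.2 0 (1 : S) _).val = _
      rw [Away.val_mk, HomogeneousLocalization.val_one, ← Localization.mk_one]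
      congr 1
      exact Subtype.ext (pow_zero _))
    (fun {i j} a b => by
      apply HomogeneousLocalization.val_injective
      change (Away.mk 𝒮 f.2 (i + j) (a.1 * b.1) _).val = _
      rw [HomogeneousLocalization.val_mul]
      change _ = (Away.mk 𝒮 f.2 i a.1 _).val * (Away.mk 𝒮 f.2 j b.1 _).val
      rw [Away.val_mk, Away.val_mk, Away.val_mk, Localization.mk_mul]
      congr 1
      ext
      simp [pow_add])).comp
  (DirectSum.decomposeRingEquiv 𝒮).toRingHom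

lemma deh_coe (f : 𝒮 1) {i : ℕ} (a : 𝒮 i) : deh 𝒮 f a.1 = Away.mk 𝒮 f.2 i a.1 (by simp) := by
  rw [deh, RingHom.comp_apply]
  have h : (DirectSum.decomposeRingEquiv 𝒮).toRingHom a.1 = DirectSum.of (fun i => 𝒮 i) i a :=
    DirectSum.decompose_coe 𝒮 a
  rw [h, DirectSum.toSemiring_of]
  rfl

lemma deh_frac (f g : 𝒮 1) : deh 𝒮 f g.1 = frac 𝒮 f g := deh_coe 𝒮 f g

lemma deh_algebraMap (f : 𝒮 1) (a : A) :
    deh 𝒮 f (algebraMap A S a) = fromZeroRingHom 𝒮 _ (algebraMap A (𝒮 0) a) := by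
  refine (deh_coe 𝒮 f (algebraMap A (𝒮 0) a)).trans ?_
  apply HomogeneousLocalization.val_injective
  rw [Away.val_mk]
  change _ = Localization.mk _ _
  congr 1
  exact Subtype.ext (pow_zero _)

lemma deh_surjective (f : 𝒮 1) : Function.Surjective (deh 𝒮 f) := by
  intro z
  obtain ⟨n, a, ha, rfl⟩ := Away.mk_surjective 𝒮 f.2 z
  exact ⟨a, deh_coe 𝒮 f (⟨a, by simpa using ha⟩ : 𝒮 n)⟩

/-- Ring homomorphisms out of `𝒮_(f)` agreeing on `A` and on the fractions `t i / f` are equal, when the `t i`, of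
degree one, generate `S` over `A`. -/
theorem away_ringHom_ext {B : Type*} [CommRing B] {I : Type*} (t : I → 𝒮 1)
    (hgen : Algebra.adjoin A (Set.range fun i => (t i).1) = ⊤) (f : 𝒮 1) (φ ψ : Away 𝒮 f.1 →+* B)
    (hA : ∀ a : A, φ (fromZeroRingHom 𝒮 _ (algebraMap A (𝒮 0) a)) =
      ψ (fromZeroRingHom 𝒮 _ (algebraMap A (𝒮 0) a)))
    (h : ∀ i, φ (frac 𝒮 f (t i)) = ψ (frac 𝒮 f (t i))) : φ = ψ := by
  let : Algebra A B := ((φ.comp (deh 𝒮 f)).comp (algebraMap A S)).toAlgebra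
  have h1 : (⟨φ.comp (deh 𝒮 f), fun a => rfl⟩ : S →ₐ[A] B) = ⟨ψ.comp (deh 𝒮 f), fun a => by
      change ψ (deh 𝒮 f (algebraMap A S a)) = φ (deh 𝒮 f (algebraMap A S a))
      rw [deh_algebraMap, hA]⟩ := by
    refine AlgHom.ext_of_adjoin_eq_top hgen ?_
    rintro _ ⟨i, rfl⟩
    change φ (deh 𝒮 f (t i).1) = ψ (deh 𝒮 f (t i).1)
    rw [deh_frac, h]
  ext z
  obtain ⟨s, rfl⟩ := deh_surjective 𝒮 f z
  exact congr($h1 s)

end deh

section resHom

variable {X : Scheme.{u}} (r : X ⟶ Proj 𝒮) (f : 𝒮 1) {W : X.Opens} (hW : W ≤ r ⁻¹ᵁ Proj.basicOpen 𝒮 f.1)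

/-- The ring homomorphism `𝒮_(f) →+* Γ(X, W)` defined by `r : X ⟶ Proj 𝒮`, for `W ≤ r⁻¹ D_+(f)`. -/
noncomputable def resHom : Away 𝒮 f.1 →+* Γ(X, W) :=
  (r.appLE (Proj.basicOpen 𝒮 f.1) W hW).hom.comp (Proj.awayToSection 𝒮 f.1).hom

lemma resHom_frac (g : 𝒮 1) : resHom 𝒮 r f hW (frac 𝒮 f g) = ores hW (r.app _ (ratio 𝒮 f g)) := rfl

lemma sec_pull_eq_resHom_smul (g : 𝒮 1) :
    sec (pull 𝒮 r g) W = resHom 𝒮 r f hW (frac 𝒮 f g) • sec (pull 𝒮 r f) W := by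
  rw [← res_sec (pull 𝒮 r g) hW, sec_pull_eq_smul 𝒮 r f g, res_smul, res_sec, resHom_frac]

lemma toSpecΓ_resHom :
    W.toSpecΓ ≫ Spec.map (CommRingCat.ofHom (resHom 𝒮 r f hW)) ≫ Proj.awayι 𝒮 f.1 f.2 Nat.one_pos =
      W.ι ≫ r := by
  have h1 : Spec.map (CommRingCat.ofHom (resHom 𝒮 r f hW)) =
      Spec.map (r.appLE (Proj.basicOpen 𝒮 f.1) W hW) ≫ Spec.map (Proj.awayToSection 𝒮 f.1) := by
    rw [← Spec.map_comp]
    rfl
  rw [h1, Category.assoc, Scheme.Opens.toSpecΓ_SpecMap_appLE_assoc]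
  have h2 : (Proj.basicOpen 𝒮 f.1).toSpecΓ ≫ Spec.map (Proj.awayToSection 𝒮 f.1) ≫
      Proj.awayι 𝒮 f.1 f.2 Nat.one_pos = (Proj.basicOpen 𝒮 f.1).ι := by
    have h3 : (Proj.basicOpen 𝒮 f.1).toSpecΓ ≫ Spec.map (Proj.awayToSection 𝒮 f.1) =
        (Proj.basicOpenIsoSpec 𝒮 f.1 f.2 Nat.one_pos).hom := by
      rw [Proj.basicOpenIsoSpec_hom]
      rfl
    rw [← Category.assoc, h3, Proj.awayι, Iso.hom_inv_id_assoc]
  rw [h2, Scheme.Hom.resLE_comp_ι]

lemma resHom_algebraMap (a : A) :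
    resHom 𝒮 r f hW (fromZeroRingHom 𝒮 _ (algebraMap A (𝒮 0) a)) =
      CoordData.baseHom (r ≫ Proj.toSpecZero 𝒮 ≫ Spec.map (CommRingCat.ofHom (algebraMap A (𝒮 0)))) W a := by
  have h : (resHom 𝒮 r f hW).comp ((fromZeroRingHom 𝒮 _).comp (algebraMap A (𝒮 0))) =
      CoordData.baseHom (r ≫ Proj.toSpecZero 𝒮 ≫ Spec.map (CommRingCat.ofHom (algebraMap A (𝒮 0)))) W := by
    apply ProjStd.toSpecΓ_map_injective
    rw [ProjStd.toSpecΓ_baseHom, ← Category.assoc W.ι r, ← toSpecΓ_resHom 𝒮 r f hW]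
    simp only [Category.assoc]
    rw [Proj.awayι_toSpecZero_assoc, ← Spec.map_comp, ← Spec.map_comp]
    rfl
  exact congr($h a)

lemma ι_comp_eq_of_resHom_eq (r' : X ⟶ Proj 𝒮) (hW' : W ≤ r' ⁻¹ᵁ Proj.basicOpen 𝒮 f.1)
    (h : resHom 𝒮 r f hW = resHom 𝒮 r' f hW') : W.ι ≫ r = W.ι ≫ r' := by
  rw [← toSpecΓ_resHom 𝒮 r f hW, ← toSpecΓ_resHom 𝒮 r' f hW', h]

end resHom

/-- The opens `D_+(t i)` cover when the `t i`, of degree one, generate `S` over `A`. -/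
lemma iSup_basicOpen_eq_top {I : Type*} (t : I → 𝒮 1)
    (hgen : Algebra.adjoin A (Set.range fun i => (t i).1) = ⊤) : ⨆ i, Proj.basicOpen 𝒮 (t i).1 = ⊤ := by
  refine Proj.iSup_basicOpen_eq_top' 𝒮 (fun i => (t i).1) (fun i => ⟨1, (t i).2⟩) (top_le_iff.mp fun x _ => ?_)
  have hx : x ∈ Algebra.adjoin A (Set.range fun i => (t i).1) := hgen ▸ trivial
  induction hx using Algebra.adjoin_induction with
  | mem y hy => exact Algebra.subset_adjoin hy
  | algebraMap a => exact Subalgebra.algebraMap_mem _ (algebraMap A (𝒮 0) a)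
  | add y z _ _ hy hz => exact add_mem (hy trivial) (hz trivial)
  | mul y z _ _ hy hz => exact mul_mem (hy trivial) (hz trivial)

/-- Uniqueness part of the functor of points of `Proj 𝒮`, `𝒮` a graded `A`-algebra generated over `A` by elements `t i`
of degree one. -/
theorem eq_of_iso {I : Type*} (t : I → 𝒮 1)
    (hgen : Algebra.adjoin A (Set.range fun i => (t i).1) = ⊤) {X : Scheme.{u}} (r r' : X ⟶ Proj 𝒮)
    (hrr' : r ≫ Proj.toSpecZero 𝒮 ≫ Spec.map (CommRingCat.ofHom (algebraMap A (𝒮 0))) =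
      r' ≫ Proj.toSpecZero 𝒮 ≫ Spec.map (CommRingCat.ofHom (algebraMap A (𝒮 0))))
    (τ : (Scheme.Modules.pullback r).obj (Twist.twist 𝒮 1) ≅ (Scheme.Modules.pullback r').obj (Twist.twist 𝒮 1))
    (hτ : ∀ i, τ.hom.app ⊤ (ProjUP.pullSec r (Twist.twist 𝒮 1) (Twist.globalOf 𝒮 (t i))) =
      ProjUP.pullSec r' (Twist.twist 𝒮 1) (Twist.globalOf 𝒮 (t i))) : r = r' := by
  have hcov := iSup_basicOpen_eq_top 𝒮 t hgen
  have hcomp : ∀ i, pull 𝒮 r (t i) ≫ τ.hom = pull 𝒮 r' (t i) := fun i => hom_ext_sec (by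
    rw [sec_comp, sec_pull_top, sec_pull_top]
    exact hτ i)
  have hsec : ∀ (i : I) (U : X.Opens), τ.hom.app U (sec (pull 𝒮 r (t i)) U) = sec (pull 𝒮 r' (t i)) U :=
    fun i U => by rw [← hcomp i, sec_comp]
  have hpre : ∀ i, r ⁻¹ᵁ Proj.basicOpen 𝒮 (t i).1 = r' ⁻¹ᵁ Proj.basicOpen 𝒮 (t i).1 := fun i => by
    rw [← genLocus_pull 𝒮 t hcov r (t i), ← genLocus_pull 𝒮 t hcov r' (t i)]
    apply le_antisymm
    · rw [le_genLocus_iff, ← hsec, isGen_app_iff]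
      exact isGen_sec_genLocus _
    · rw [le_genLocus_iff, ← isGen_app_iff τ.hom, hsec]
      exact isGen_sec_genLocus _
  refine hom_ext_opens (fun i => r ⁻¹ᵁ Proj.basicOpen 𝒮 (t i).1) ?_ r r' fun i => ?_
  · rw [← Scheme.Hom.preimage_iSup, hcov, Scheme.Hom.preimage_top]
  · refine ι_comp_eq_of_resHom_eq 𝒮 r (t i) le_rfl r' (hpre i).le ?_
    refine away_ringHom_ext 𝒮 t hgen (t i) _ _ (fun a => ?_) (fun j => ?_)
    · rw [resHom_algebraMap, resHom_algebraMap, hrr']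
    · have h1 := congrArg (τ.hom.app _) (sec_pull_eq_resHom_smul 𝒮 r (t i) le_rfl (t j))
      rw [Scheme.Modules.Hom.app_smul, hsec, hsec, sec_pull_eq_resHom_smul 𝒮 r' (t i) (hpre i).le (t j)] at h1
      refine (IsGen.ext (e := sec (pull 𝒮 r' (t i)) (r ⁻¹ᵁ Proj.basicOpen 𝒮 (t i).1)) ?_ h1).symm
      rw [← le_genLocus_iff, genLocus_pull 𝒮 t hcov r' (t i)]
      exact (hpre i).le

end Groth.Agent.Ega2.H298.ProjExt
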