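import Groth.Agent.Ega2.PnMap
import Groth.Agent.Ega2.TwistInv
import Groth.Agent.Fdesc.LocGenGlue
import Groth.Prelude.Def_ProjUP

/-!
# Ratios of degree-one elements on `Proj 𝒮` and the sections they define of `O(1)`

* `ratio 𝒮 f g`: the function `g / f` on `D_+(f)`, for `f g : 𝒮 1`.
* `glob 𝒮 f`: the global section of `O(1)` defined by `f`.
* `isGen_glob`: it generates `O(1)` over `D_+(f)`.
* `glob_eq_smul`: `g = (g / f) • f` over `D_+(f)`.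
* `basicOpen_ratio`: the locus where `g / f` is a unit is `D_+(f) ∩ D_+(g)`.
* `genLocus_pull`: for `r : X ⟶ Proj 𝒮` and `D_+(t i)` covering `Proj 𝒮`, the generating locus of `r^* f` is `r⁻¹ D_+(f)`.
-/

set_option autoImplicit false
universe u
open CategoryTheory CategoryTheory.Limits AlgebraicGeometry TopologicalSpace Opposite HomogeneousLocalization
open Groth.Agent.Fdesc.LocGen
open Groth.Agent.VarietyB Groth.Agent.VarietyB.ProjHom Groth.Agent.VarietyB.ProjGlue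

namespace Groth.Agent.Ega2.H298.ProjRatio

variable {A : Type u} [CommRing A] {S : Type u} [CommRing S] [Algebra A S] (𝒮 : ℕ → Submodule A S)
  [GradedAlgebra 𝒮]

/-- The ratio `g / f` in the degree-zero localization. -/
noncomputable def frac (f g : 𝒮 1) : Away 𝒮 f.1 := Away.mk 𝒮 f.2 1 g.1 (by simp)

/-- The ratio `g / f` over `D_+(f)`. -/
noncomputable def ratio (f g : 𝒮 1) : Γ(Proj 𝒮, Proj.basicOpen 𝒮 f.1) :=
  Proj.awayToSection 𝒮 f.1 (frac 𝒮 f g)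

lemma ratio_apply (f g : 𝒮 1) (p : Proj.basicOpen 𝒮 f.1) :
    ((ratio 𝒮 f g).val p).val = Localization.mk g.1 ⟨f.1, p.2⟩ := by
  rw [ratio, frac]
  change Localization.mk _ _ = _
  congr 1
  ext
  simp

/-- The global section of `O(1)` defined by a degree-one element. -/
noncomputable def glob (f : 𝒮 1) : Γ(Twist.twist 𝒮 1, ⊤) := Twist.globalOf 𝒮 f

/-- `f` generates `O(1)` over `D_+(f)`. -/
lemma isGen_glob (f : 𝒮 1) :
    IsGen (res (Twist.twist 𝒮 1) (le_top : Proj.basicOpen 𝒮 f.1 ≤ ⊤) (glob 𝒮 f)) :=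
  TwistBasic.isGen_fracSec (𝒜 := 𝒮) 1 f ⟨1, SetLike.GradedOne.one_mem⟩ (by simp) (Proj.basicOpen 𝒮 f.1)
    (fun x _ h => x.isPrime.ne_top ((Ideal.eq_top_iff_one _).mpr h)) (fun x hx => hx)

/-- `g = (g / f) • f` over `D_+(f)`. -/
lemma glob_eq_smul (f g : 𝒮 1) :
    res (Twist.twist 𝒮 1) (le_top : Proj.basicOpen 𝒮 f.1 ≤ ⊤) (glob 𝒮 g) =
      ratio 𝒮 f g • res (Twist.twist 𝒮 1) (le_top : Proj.basicOpen 𝒮 f.1 ≤ ⊤) (glob 𝒮 f) := by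
  refine Subtype.ext (funext fun x => Subtype.ext ?_)
  refine Eq.trans ?_ (TwistBasic.smulS_val (𝒜 := 𝒮) 1 (U := Proj.basicOpen 𝒮 f.1) (ratio 𝒮 f g)
    (res (Twist.twist 𝒮 1) (le_top : Proj.basicOpen 𝒮 f.1 ≤ ⊤) (glob 𝒮 f)) x).symm
  rw [ratio_apply]
  change Localization.mk g.1 _ = Localization.mk g.1 _ * Localization.mk f.1 _
  rw [Localization.mk_mul, Localization.mk_eq_mk_iff, Localization.r_iff_exists]
  exact ⟨1, by simp; ring⟩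

lemma basicOpen_ratio (f g : 𝒮 1) :
    (Proj 𝒮).basicOpen (ratio 𝒮 f g) = Proj.basicOpen 𝒮 f.1 ⊓ Proj.basicOpen 𝒮 g.1 := by
  apply le_antisymm
  · refine le_inf ((Proj 𝒮).basicOpen_le _) fun x hx => ?_
    have h1 : IsUnit (ores ((Proj 𝒮).basicOpen_le (ratio 𝒮 f g)) (ratio 𝒮 f g)) :=
      (Proj 𝒮).toRingedSpace.isUnit_res_basicOpen (ratio 𝒮 f g)
    obtain ⟨c, hc⟩ := h1.exists_left_inv
    have h2 := congrArg (fun t : Γ(Proj 𝒮, (Proj 𝒮).basicOpen (ratio 𝒮 f g)) => (t.val ⟨x, hx⟩).val) hc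
    have h3 : ((ores ((Proj 𝒮).basicOpen_le (ratio 𝒮 f g)) (ratio 𝒮 f g)).val ⟨x, hx⟩).val =
        Localization.mk g.1 ⟨f.1, (Proj 𝒮).basicOpen_le (ratio 𝒮 f g) hx⟩ :=
      ratio_apply 𝒮 f g ⟨x, (Proj 𝒮).basicOpen_le (ratio 𝒮 f g) hx⟩
    have h4 : (c.val ⟨x, hx⟩).val * Localization.mk g.1 ⟨f.1, (Proj 𝒮).basicOpen_le (ratio 𝒮 f g) hx⟩ =
        (1 : Localization.AtPrime x.asHomogeneousIdeal.toIdeal) := by
      rw [← h3]
      refine (HomogeneousLocalization.val_mul _ _).symm.trans (h2.trans ?_)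
      exact HomogeneousLocalization.val_one
    have h5 : IsUnit (Localization.mk g.1 ⟨f.1, (Proj 𝒮).basicOpen_le (ratio 𝒮 f g) hx⟩ :
        Localization.AtPrime x.asHomogeneousIdeal.toIdeal) := IsUnit.of_mul_eq_one_right _ h4
    rw [Localization.mk_eq_mk', IsLocalization.AtPrime.isUnit_mk'_iff _ x.asHomogeneousIdeal.toIdeal] at h5
    exact h5
  · intro x hx
    rw [Scheme.mem_basicOpen _ _ _ hx.1]
    have h1 : ores (inf_le_left : Proj.basicOpen 𝒮 f.1 ⊓ Proj.basicOpen 𝒮 g.1 ≤ _) (ratio 𝒮 f g) *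
        ores (inf_le_right : Proj.basicOpen 𝒮 f.1 ⊓ Proj.basicOpen 𝒮 g.1 ≤ _) (ratio 𝒮 g f) = 1 := by
      apply ((isGen_glob 𝒮 f).res (inf_le_left : Proj.basicOpen 𝒮 f.1 ⊓ Proj.basicOpen 𝒮 g.1 ≤ _)).ext
      have h2 := congrArg (res (Twist.twist 𝒮 1)
        (inf_le_left : Proj.basicOpen 𝒮 f.1 ⊓ Proj.basicOpen 𝒮 g.1 ≤ _)) (glob_eq_smul 𝒮 f g)
      have h3 := congrArg (res (Twist.twist 𝒮 1)
        (inf_le_right : Proj.basicOpen 𝒮 f.1 ⊓ Proj.basicOpen 𝒮 g.1 ≤ _)) (glob_eq_smul 𝒮 g f)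
      rw [res_smul, res_res, res_res] at h2 h3
      rw [one_smul, res_res, mul_comm, mul_smul, ← h2, ← h3]
    have h4 := congrArg ((Proj 𝒮).presheaf.germ _ x hx) h1
    rw [map_mul, map_one] at h4
    have h5 : ((Proj 𝒮).presheaf.germ _ x hx) (ores (inf_le_left :
        Proj.basicOpen 𝒮 f.1 ⊓ Proj.basicOpen 𝒮 g.1 ≤ _) (ratio 𝒮 f g)) =
          (Proj 𝒮).presheaf.germ _ x hx.1 (ratio 𝒮 f g) :=
      TopCat.Presheaf.germ_res_apply (Proj 𝒮).presheaf (homOfLE inf_le_left) x hx (ratio 𝒮 f g)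
    rw [← h5]
    exact IsUnit.of_mul_eq_one _ h4

variable {X : Scheme.{u}}

/-- The pulled back section `r^* f` of `r^* O(1)`, as a morphism from the structure module. -/
noncomputable def pull (r : X ⟶ Proj 𝒮) (f : 𝒮 1) :
    Coh.structureModule X ⟶ (Scheme.Modules.pullback r).obj (Twist.twist 𝒮 1) :=
  homOf (pullTop r (glob 𝒮 f))

lemma sec_pull (r : X ⟶ Proj 𝒮) (f : 𝒮 1) (U : (Proj 𝒮).Opens) :
    sec (pull 𝒮 r f) (r ⁻¹ᵁ U) = pullSec r (res (Twist.twist 𝒮 1) (le_top : U ≤ ⊤) (glob 𝒮 f)) := by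
  rw [pull, sec_homOf]
  exact res_pullSec r (le_top : U ≤ ⊤) (glob 𝒮 f)

lemma sec_pull_top (r : X ⟶ Proj 𝒮) (f : 𝒮 1) :
    sec (pull 𝒮 r f) ⊤ = ProjUP.pullSec r (Twist.twist 𝒮 1) (Twist.globalOf 𝒮 f) := by
  rw [pull, sec_homOf, res_refl]
  rfl

/-- `r^* f` generates `r^* O(1)` over `r⁻¹ D_+(f)`. -/
lemma isGen_pull (r : X ⟶ Proj 𝒮) (f : 𝒮 1) : IsGen (sec (pull 𝒮 r f) (r ⁻¹ᵁ Proj.basicOpen 𝒮 f.1)) := by
  rw [sec_pull]
  exact (isGen_glob 𝒮 f).pullSec r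

/-- `r^* g = r^#(g / f) • r^* f` over `r⁻¹ D_+(f)`. -/
lemma sec_pull_eq_smul (r : X ⟶ Proj 𝒮) (f g : 𝒮 1) :
    sec (pull 𝒮 r g) (r ⁻¹ᵁ Proj.basicOpen 𝒮 f.1) =
      (r.app _ (ratio 𝒮 f g) : Γ(X, r ⁻¹ᵁ Proj.basicOpen 𝒮 f.1)) •
        sec (pull 𝒮 r f) (r ⁻¹ᵁ Proj.basicOpen 𝒮 f.1) := by
  rw [sec_pull, sec_pull, glob_eq_smul 𝒮 f g, pullSec_smul]

lemma genLocus_pull_inf (r : X ⟶ Proj 𝒮) (f g : 𝒮 1) :
    CohB1.genLocus _ (pull 𝒮 r g) ⊓ r ⁻¹ᵁ Proj.basicOpen 𝒮 f.1 =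
      r ⁻¹ᵁ Proj.basicOpen 𝒮 g.1 ⊓ r ⁻¹ᵁ Proj.basicOpen 𝒮 f.1 := by
  rw [genLocus_inf_eq (pull 𝒮 r g) (isGen_pull 𝒮 r f) (sec_pull_eq_smul 𝒮 r f g),
    ← Scheme.preimage_basicOpen, basicOpen_ratio, inf_comm]
  rfl

/-- If the opens `D_+(t i)`, `t i` of degree one, cover `Proj 𝒮`, then the generating locus of `r^* f` is
`r⁻¹ D_+(f)`, for `f` of degree one. -/
theorem genLocus_pull {I : Type*} (t : I → 𝒮 1) (ht : ⨆ i, Proj.basicOpen 𝒮 (t i).1 = ⊤) (r : X ⟶ Proj 𝒮)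
    (f : 𝒮 1) : CohB1.genLocus _ (pull 𝒮 r f) = r ⁻¹ᵁ Proj.basicOpen 𝒮 f.1 := by
  apply le_antisymm
  · intro x hx
    have h1 : r x ∈ ⨆ i, Proj.basicOpen 𝒮 (t i).1 := ht ▸ trivial
    obtain ⟨i, hi⟩ := Opens.mem_iSup.mp h1
    have h2 : x ∈ CohB1.genLocus _ (pull 𝒮 r f) ⊓ r ⁻¹ᵁ Proj.basicOpen 𝒮 (t i).1 := ⟨hx, hi⟩
    rw [genLocus_pull_inf] at h2
    exact h2.1
  · rw [le_genLocus_iff]
    exact isGen_pull 𝒮 r f

end Groth.Agent.Ega2.H298.ProjRatio
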